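import Groth.Agent.S1566
import Groth.Agent.CurvesB.VABaseChange
import Groth.Agent.Etcore.DimBaseChange

/-!
# `h¹` of a closed subscheme of a base change of a proper curve

* `h1_bc`: `h¹(Y_K, O) = h¹(Y, O)` for `Y` proper over the field `k` and a field extension `K`;
* `h1_le_of_isClosedImmersion`: `h¹(Z, O) ≤ h¹(X, O)` for a closed subscheme `Z` of a proper `X` of dimension `≤ 1`;
* `h1_red_le`: `h¹(Z, O) ≤ h¹(Y, O)` for a closed subscheme `Z` of `Y_K`, `dim Y ≤ 1`.
-/

set_option autoImplicit false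
universe u
open CategoryTheory CategoryTheory.Limits AlgebraicGeometry

namespace Groth.Agent.Models.H217.H1Red

/-- `dim_k H¹(X, O_X)` for `f : X ⟶ Spec k`. -/
noncomputable abbrev h1 (k : Type u) [Field k] (X : Scheme.{u}) (f : X ⟶ Spec (CommRingCat.of k)) : ℕ :=
  letI : X.Over (Spec (CommRingCat.of k)) := ⟨f⟩
  Module.finrank k (Coh.HH X (Coh.structureModule X) 1)

/-- Invariance of `h¹(O)` under extension of the base field, for an arbitrary pullback square. -/
theorem h1_eq_of_isPullback (k : Type u) [Field k] (K : Type u) [Field K] [Algebra k K] {Y Y' : Scheme.{u}}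
    (f : Y ⟶ Spec (CommRingCat.of k)) [IsProper f] (f' : Y' ⟶ Spec (CommRingCat.of K)) (p : Y' ⟶ Y)
    (h : IsPullback p f' f (Spec.map (CommRingCat.ofHom (algebraMap k K)))) :
    h1 K Y' f' = h1 k Y f := by
  letI : Y.Over (Spec (CommRingCat.of k)) := ⟨f⟩
  letI : Y'.Over (Spec (CommRingCat.of K)) := ⟨f'⟩
  have : IsProper (Y ↘ Spec (CommRingCat.of k)) := ‹IsProper f›
  exact CurvesB.VABaseChange.finrank_structure_eq (k := k) (K := K) (X := Y) (X' := Y') (p := p) h 1

theorem h1_bc (k : Type u) [Field k] (K : Type u) [Field K] [Algebra k K] (Y : Scheme.{u})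
    (f : Y ⟶ Spec (CommRingCat.of k)) [IsProper f] :
    h1 K (pullback f (Spec.map (CommRingCat.ofHom (algebraMap k K)))) (pullback.snd _ _) = h1 k Y f :=
  h1_eq_of_isPullback k K f _ _ (IsPullback.of_hasPullback _ _)

/-- A closed subscheme of a proper scheme of dimension `≤ 1` has smaller `h¹(O)`. -/
theorem h1_le_of_isClosedImmersion (k : Type u) [Field k] (X Z : Scheme.{u})
    (f : X ⟶ Spec (CommRingCat.of k)) [IsProper f] (hdim : topologicalKrullDim X ≤ 1) (r : Z ⟶ X)
    [IsClosedImmersion r] : h1 k Z (r ≫ f) ≤ h1 k X f := by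
  letI : X.Over (Spec (CommRingCat.of k)) := ⟨f⟩
  letI : Z.Over (Spec (CommRingCat.of k)) := ⟨r ≫ f⟩
  have : IsProper (X ↘ Spec (CommRingCat.of k)) := ‹IsProper f›
  have hcl : IsClosedImmersion (r ∣_ (⊤ : X.Opens)) := inferInstance
  exact Groth.Agent.S1566.result k X Z hdim r rfl ⊤ (by simp) hcl

/-- More generally for a finite morphism which is a closed immersion over a dense open. -/
theorem h1_le_of_isFinite (k : Type u) [Field k] (X Z : Scheme.{u})
    (f : X ⟶ Spec (CommRingCat.of k)) [IsProper f] (hdim : topologicalKrullDim X ≤ 1) (r : Z ⟶ X)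
    [IsFinite r] (U : X.Opens) (hU : Dense (U : Set X)) (hr : IsClosedImmersion (r ∣_ U)) :
    h1 k Z (r ≫ f) ≤ h1 k X f := by
  letI : X.Over (Spec (CommRingCat.of k)) := ⟨f⟩
  letI : Z.Over (Spec (CommRingCat.of k)) := ⟨r ≫ f⟩
  have : IsProper (X ↘ Spec (CommRingCat.of k)) := ‹IsProper f›
  exact Groth.Agent.S1566.result k X Z hdim r rfl U hU hr

theorem dim_bc (k : Type u) [Field k] (K : Type u) [Field K] [Algebra k K] (Y : Scheme.{u})
    (f : Y ⟶ Spec (CommRingCat.of k)) [LocallyOfFiniteType f] :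
    topologicalKrullDim ↥(pullback f (Spec.map (CommRingCat.ofHom (algebraMap k K)))) =
      topologicalKrullDim Y :=
  Etcore.DimBaseChange.topologicalKrullDim_eq (Field.toIsField k) (Field.toIsField K) f
      (pullback.snd f _) (pullback.fst f _) _ (IsPullback.of_hasPullback _ _)

/-- `h¹(Z, O) ≤ h¹(Y, O)` for a closed subscheme `Z` of `Y_K`, `Y` proper of dimension `≤ 1` over `k`. -/
theorem h1_red_le (k : Type u) [Field k] (K : Type u) [Field K] [Algebra k K] (Y : Scheme.{u})
    (f : Y ⟶ Spec (CommRingCat.of k)) [IsProper f] (hdim : topologicalKrullDim Y ≤ 1) (Z : Scheme.{u})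
    (r : Z ⟶ pullback f (Spec.map (CommRingCat.ofHom (algebraMap k K)))) [IsClosedImmersion r] :
    h1 K Z (r ≫ pullback.snd _ _) ≤ h1 k Y f :=
  (h1_le_of_isClosedImmersion K _ Z (pullback.snd _ _) ((dim_bc k K Y f).trans_le hdim) r).trans_eq
    (h1_bc k K Y f)

end Groth.Agent.Models.H217.H1Red
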